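import Cfsg.Agent.H385.SpTop

/-!
# `S3536-P-KR`: Frobenius subgroups `q^n : (q^n-1)/2` and the coprime step (helper327)
-/

set_option autoImplicit false

namespace Cfsg.Agent.H327.KR

open Subgroup
open scoped MatrixGroups Matrix

universe u v

/-- a Frobenius group with kernel a nontrivial `p`-group and cyclic complement of order `n` -/
def Frob (T : Type*) [Group T] (p n : ℕ) : Prop :=
  ∃ (A : Subgroup T) (c : T), IsPGroup p A ∧ A ≠ ⊥ ∧ (∀ a ∈ A, c * a * c⁻¹ ∈ A) ∧ orderOf c = n ∧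
    ∀ j, 0 < j → j < n → ∀ a ∈ A, a * c ^ j = c ^ j * a → a = 1

theorem Frob.congr {T S : Type*} [Group T] [Group S] {p n : ℕ} (h : Frob T p n) (e : T ≃* S) : Frob S p n := by
  obtain ⟨A, c, hA, hA1, hn, hc, hf⟩ := h
  refine ⟨A.map e.toMonoidHom, e c, hA.map _, ?_, ?_, ?_, ?_⟩
  · rwa [Ne, Subgroup.map_eq_bot_iff_of_injective _ e.injective]
  · rintro _ ⟨a, ha, rfl⟩
    exact ⟨_, hn a ha, by simp⟩
  · rw [← hc]
    exact orderOf_injective e.toMonoidHom e.injective c
  · rintro j h0 hj _ ⟨a, ha, rfl⟩ h1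
    have h2 : e (a * c ^ j) = e (c ^ j * a) := by
      rw [map_mul, map_mul, map_pow]; exact h1
    change e a = 1
    rw [hf j h0 hj a ha (e.injective h2), map_one]

/-- **The coprime step.** -/
theorem Frob.step {X : Type*} [Group X] [Finite X] {V : Subgroup X} [V.Normal]
    (hVc : ∀ v ∈ V, ∀ w ∈ V, v * w = w * v) {t p n : ℕ} (ht : t.Prime) (hp : p.Prime) (htp : t ≠ p)
    (hexp : ∀ v ∈ V, v ^ t = 1) (T : Subgroup (X ⧸ V)) (hT : Frob T p n)
    (hfaith : ∀ x : X, (QuotientGroup.mk x : X ⧸ V) ∈ T → (∀ v ∈ V, x * v = v * x) → x ∈ V) :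
    ∃ x : X, orderOf x = t * n := by
  obtain ⟨A, c, hA, hA1, hn, hc, hf⟩ := hT
  have := Fact.mk hp
  have := Fact.mk ht
  have hcop : Nat.Coprime (Nat.card (A.map T.subtype)) t := by
    obtain ⟨k, hk⟩ := IsPGroup.iff_card.1 hA
    rw [Subgroup.card_map_of_injective T.subtype_injective, hk]
    exact Nat.Coprime.pow_left k ((Nat.coprime_primes hp ht).2 htp.symm)
  rcases H385.Sp.frob_order (QuotientGroup.mk' V) (QuotientGroup.mk'_surjective V)
    (fun a ha b hb => by
      rw [QuotientGroup.ker_mk'] at ha hb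
      exact hVc a ha b hb) ht
    (fun v hv => by
      rw [QuotientGroup.ker_mk'] at hv
      exact hexp v hv) (A.map T.subtype) (c : X ⧸ V) (e := n) (by rw [Subgroup.orderOf_coe, hc])
    (by
      rintro _ ⟨a, ha, rfl⟩
      exact ⟨_, hn a ha, rfl⟩)
    (by
      rintro i h0 hi _ ⟨a, ha, rfl⟩ h1
      have h2 : a * c ^ i = c ^ i * a := Subtype.ext h1
      rw [hf i h0 hi a ha h2, map_one]) hcop with h | h
  · obtain ⟨y, hy⟩ := h
    exact ⟨y, by rw [hy, mul_comm]⟩
  · exfalso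
    obtain ⟨a, ha⟩ := Subgroup.ne_bot_iff_exists_ne_one.1 hA1
    obtain ⟨y, hy⟩ := QuotientGroup.mk'_surjective V ((a : T) : X ⧸ V)
    have h1 := h y (by rw [hy]; exact ⟨(a : T), a.2, rfl⟩)
    have h2 : y ∈ V := hfaith y (by
      have : (QuotientGroup.mk y : X ⧸ V) = ((a : T) : X ⧸ V) := hy
      rw [this]
      exact (a : T).2) (fun v hv => h1 v (by rw [QuotientGroup.ker_mk']; exact hv))
    have h3 : ((a : T) : X ⧸ V) = 1 := by
      rw [← hy]
      exact (QuotientGroup.eq_one_iff y).2 h2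
    exact ha (Subtype.ext (Subtype.ext h3))

section SL

variable {E : Type u} [Field E]

/-- upper unitriangular matrices -/
def up : Multiplicative E →* SL(2, E) where
  toFun b := ⟨!![1, b.toAdd; 0, 1], by simp [Matrix.det_fin_two]⟩
  map_one' := by
    ext i j
    fin_cases i <;> fin_cases j <;> simp
  map_mul' b b' := by
    apply Subtype.ext
    change !![1, b.toAdd + b'.toAdd; 0, 1] = !![1, b.toAdd; 0, 1] * !![1, b'.toAdd; 0, 1]
    rw [Matrix.mul_fin_two]
    simp [add_comm]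

/-- diagonal matrices -/
def dg : Eˣ →* SL(2, E) where
  toFun a := ⟨!![(a : E), 0; 0, ((a⁻¹ : Eˣ) : E)], by simp [Matrix.det_fin_two]⟩
  map_one' := by
    ext i j
    fin_cases i <;> fin_cases j <;> simp
  map_mul' b b' := by
    apply Subtype.ext
    change !![((b * b' : Eˣ) : E), 0; 0, (((b * b')⁻¹ : Eˣ) : E)] =
      !![(b : E), 0; 0, ((b⁻¹ : Eˣ) : E)] * !![(b' : E), 0; 0, ((b'⁻¹ : Eˣ) : E)]
    rw [Matrix.mul_fin_two]
    simp [mul_comm]

theorem coe_up (b : E) : ((up (Multiplicative.ofAdd b) : SL(2, E)) : Matrix (Fin 2) (Fin 2) E) = !![1, b; 0, 1] := rfl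

theorem coe_dg (a : Eˣ) : ((dg a : SL(2, E)) : Matrix (Fin 2) (Fin 2) E) = !![(a : E), 0; 0, ((a⁻¹ : Eˣ) : E)] := rfl

theorem dg_up (a : Eˣ) (b : E) : dg a * up (Multiplicative.ofAdd b) * (dg a)⁻¹ =
    up (Multiplicative.ofAdd ((a : E) * a * b)) := by
  rw [mul_inv_eq_iff_eq_mul]
  ext i j
  rw [Matrix.SpecialLinearGroup.coe_mul, Matrix.SpecialLinearGroup.coe_mul, coe_up, coe_up, coe_dg]
  fin_cases i <;> fin_cases j <;> simp [Matrix.mul_apply, Fin.sum_univ_two]
  field_simp

variable [Fintype E] {p : ℕ}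

theorem frob_of_sl2 [CharP E p] (hp : p.Prime) (hp2 : p ≠ 2) {T : Type v} [Group T] (Φ : SL(2, E) →* T)
    (h1 : ∀ g, Φ g = 1 → g = 1 ∨ g = -1) (h2 : Φ (-1) = 1) : Frob T p ((Nat.card E - 1) / 2) := by
  classical
  have := Fact.mk hp
  have h20 : (2 : E) ≠ 0 := by
    have h3 : ((2 : ℕ) : E) ≠ 0 := by
      rw [Ne, CharP.cast_eq_zero_iff E p 2]
      intro h
      exact hp2 ((Nat.prime_dvd_prime_iff_eq hp Nat.prime_two).1 h)
    exact_mod_cast h3
  obtain ⟨a, ha⟩ := IsCyclic.exists_generator (α := Eˣ)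
  have hoa : orderOf a = Nat.card E - 1 := by
    rw [orderOf_eq_card_of_forall_mem_zpowers ha, Nat.card_units]
  set N := Nat.card E - 1 with hN
  -- `N` is even
  have hNe : 2 ∣ N := by
    have h3 : (-1 : Eˣ) ^ 2 = 1 := by simp
    have h4 : orderOf (-1 : Eˣ) = 2 := orderOf_eq_prime h3 (by
      intro h
      have h5 := congrArg Units.val h
      rw [Units.val_neg, Units.val_one] at h5
      apply h20
      linear_combination -h5)
    rw [← h4, hN, ← Nat.card_units]
    exact orderOf_dvd_natCard _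
  have hN0 : 0 < N := by rw [← hoa]; exact orderOf_pos a
  obtain ⟨M, hM⟩ := hNe
  have hM2 : N / 2 = M := by omega
  rw [hM2]
  -- powers
  have hpow : ∀ m : ℕ, (((a ^ m : Eˣ) : E)) * ((a ^ m : Eˣ) : E) = 1 ↔ M ∣ m := by
    intro m
    have h3 : (((a ^ m : Eˣ) : E)) * ((a ^ m : Eˣ) : E) = 1 ↔ a ^ (2 * m) = 1 := by
      rw [two_mul, pow_add, ← Units.val_mul, Units.val_eq_one]
    rw [h3, ← orderOf_dvd_iff_pow_eq_one, hoa, hM]
    exact Nat.mul_dvd_mul_iff_left (by norm_num)
  have hc : ∀ m : ℕ, Φ (dg a) ^ m = 1 ↔ M ∣ m := by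
    intro m
    rw [← hpow, ← map_pow, ← map_pow]
    generalize a ^ m = α
    constructor
    · intro h
      rcases h1 _ h with h3 | h3
      · have h4 := congrArg (fun g : SL(2, E) => (g : Matrix (Fin 2) (Fin 2) E) 0 0) h3
        have h5 : (α : E) = 1 := h4
        rw [h5, mul_one]
      · have h4 := congrArg (fun g : SL(2, E) => (g : Matrix (Fin 2) (Fin 2) E) 0 0) h3
        have h5 : (α : E) = -1 := by
          simpa [coe_dg] using h4
        rw [h5]; ring
    · intro h
      have h3 : (α : E) = 1 ∨ (α : E) = -1 := mul_self_eq_one_iff.1 h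
      rcases h3 with h3 | h3
      · have h4 : α = 1 := Units.ext h3
        rw [h4, map_one, map_one]
      · have h4 : α = -1 := Units.ext (by rw [h3]; simp)
        have h5 : dg (-1 : Eˣ) = (-1 : SL(2, E)) := by
          ext i j
          rw [coe_dg]
          fin_cases i <;> fin_cases j <;> simp
        rw [h4, h5, h2]
  refine ⟨(Φ.comp up).range, Φ (dg a), ?_, ?_, ?_, ?_, ?_⟩
  · rintro ⟨_, ⟨b, rfl⟩⟩
    refine ⟨1, Subtype.ext ?_⟩
    change (Φ.comp up b) ^ p ^ 1 = 1
    have h3 : b ^ p = 1 := by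
      apply Multiplicative.toAdd.injective
      rw [toAdd_pow, toAdd_one, nsmul_eq_mul, CharP.cast_eq_zero, zero_mul]
    rw [pow_one, ← map_pow, h3, map_one]
  · intro h
    have h3 : Φ (up (Multiplicative.ofAdd (1 : E))) = 1 := by
      have h4 : Φ.comp up (Multiplicative.ofAdd (1 : E)) ∈ (Φ.comp up).range := ⟨_, rfl⟩
      rw [h, mem_bot] at h4
      exact h4
    rcases h1 _ h3 with h4 | h4
    · have h5 := congrArg (fun g : SL(2, E) => (g : Matrix (Fin 2) (Fin 2) E) 0 1) h4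
      simp [coe_up] at h5
    · have h5 := congrArg (fun g : SL(2, E) => (g : Matrix (Fin 2) (Fin 2) E) 0 1) h4
      simp [coe_up] at h5
  · rintro _ ⟨b, rfl⟩
    refine ⟨Multiplicative.ofAdd ((a : E) * a * b.toAdd), ?_⟩
    change Φ (up _) = Φ (dg a) * Φ (up b) * (Φ (dg a))⁻¹
    rw [← dg_up, map_mul, map_mul, map_inv]
    rfl
  · apply Nat.dvd_antisymm
    · exact orderOf_dvd_of_pow_eq_one ((hc M).2 dvd_rfl)
    · exact (hc _).1 (pow_orderOf_eq_one _)
  · rintro j h0 hj _ ⟨b, rfl⟩ hcomm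
    have h3 : Φ (up b * dg (a ^ j) * (dg (a ^ j) * up b)⁻¹) = 1 := by
      have h4 : Φ (up b) * Φ (dg a) ^ j = Φ (dg a) ^ j * Φ (up b) := hcomm
      rw [map_mul, map_inv, map_mul, map_mul, map_pow, map_pow, h4, mul_inv_cancel]
    have hpj := hpow j
    generalize a ^ j = α at h3 hpj
    have h5 : b.toAdd = 0 := by
      rcases h1 _ h3 with h4 | h4
      · have h5 : up b * dg α = dg α * up b := mul_inv_eq_one.1 h4
        have h6 := congrArg (fun g : SL(2, E) => (g : Matrix (Fin 2) (Fin 2) E) 0 1) h5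
        have h7 : b.toAdd * ((α⁻¹ : Eˣ) : E) = (α : E) * b.toAdd := by
          have e1 : ((up b : SL(2, E)) : Matrix (Fin 2) (Fin 2) E) = !![1, b.toAdd; 0, 1] := rfl
          simpa [Matrix.SpecialLinearGroup.coe_mul, e1, coe_dg, Matrix.mul_apply, Fin.sum_univ_two] using h6
        by_contra hb
        have h8 : ((α⁻¹ : Eˣ) : E) = (α : E) := by
          rw [mul_comm] at h7
          exact mul_right_cancel₀ hb h7
        have h9 : ((α : E)) * (α : E) = 1 := by
          nth_rewrite 1 [← h8]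
          exact Units.inv_mul _
        have h10 := hpj.1 h9
        exact absurd (Nat.le_of_dvd h0 h10) (by omega)
      · exfalso
        have h5 : up b * dg α = -(dg α * up b) := by
          have := mul_inv_eq_iff_eq_mul.1 h4
          rw [this, neg_one_mul]
        have h6 := congrArg (fun g : SL(2, E) => (g : Matrix (Fin 2) (Fin 2) E) 0 0) h5
        have h7 : (α : E) = -(α : E) := by
          have e1 : ((up b : SL(2, E)) : Matrix (Fin 2) (Fin 2) E) = !![1, b.toAdd; 0, 1] := rfl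
          simpa [Matrix.SpecialLinearGroup.coe_mul, e1, coe_dg, Matrix.mul_apply, Fin.sum_univ_two] using h6
        have h8 : (2 : E) * (α : E) = 0 := by linear_combination h7
        rcases mul_eq_zero.1 h8 with h9 | h9
        · exact h20 h9
        · exact α.ne_zero h9
    have h6 : b = 1 := Multiplicative.toAdd.injective h5
    rw [h6, map_one]

end SL

end Cfsg.Agent.H327.KR
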