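import Cfsg.Agent.H327.KR.Frob
import Cfsg.Agent.H954.TSing9
import Cfsg.Agent.TwoFusion.SLTwoFacts

/-!
# `S3536-P-KR`: `SL_2(q^n)` acting on hermitian matrices, an orthogonal space of dimension `2n` over `F_q` (helper327)
-/

set_option autoImplicit false

namespace Cfsg.Agent.H327.KR

open Subgroup Module Cfsg
open Cfsg.Agent.LieClassical.OrthCore (O Nondeg)
open scoped MatrixGroups Matrix

universe u v

section Herm

variable {F : Type u} [Field F] {E : Type v} [Field E] [Algebra F E] (σ : E ≃ₐ[F] E)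

/-- conjugate transpose -/
def ct (M : Matrix (Fin 2) (Fin 2) E) : Matrix (Fin 2) (Fin 2) E := (M.map σ)ᵀ

theorem ct_apply (M : Matrix (Fin 2) (Fin 2) E) (i j : Fin 2) : ct σ M i j = σ (M j i) := rfl

theorem ct_one : ct σ 1 = 1 := by
  ext i j
  rw [ct_apply]
  fin_cases i <;> fin_cases j <;> simp

theorem ct_neg (M : Matrix (Fin 2) (Fin 2) E) : ct σ (-M) = - ct σ M := by
  ext i j
  rw [ct_apply, Matrix.neg_apply, map_neg, Matrix.neg_apply, ct_apply]

theorem ct_mul (M N : Matrix (Fin 2) (Fin 2) E) : ct σ (M * N) = ct σ N * ct σ M := by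
  ext i j
  simp only [ct_apply, Matrix.mul_apply, Fin.sum_univ_two, map_add, map_mul]
  ring

theorem det_ct (M : Matrix (Fin 2) (Fin 2) E) : (ct σ M).det = σ M.det := by
  rw [Matrix.det_fin_two, Matrix.det_fin_two, map_sub, map_mul, map_mul]
  simp only [ct_apply]
  ring

theorem ct_ct (hσ : ∀ x, σ (σ x) = x) (M : Matrix (Fin 2) (Fin 2) E) : ct σ (ct σ M) = M := by
  ext i j
  rw [ct_apply, ct_apply, hσ]

/-- hermitian matrices -/
def HM : Submodule F (Matrix (Fin 2) (Fin 2) E) where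
  carrier := {M | ct σ M = M}
  zero_mem' := by
    ext i j
    simp [ct_apply]
  add_mem' := by
    intro M N hM hN
    ext i j
    rw [ct_apply, Matrix.add_apply, map_add, Matrix.add_apply]
    have h1 := congrFun (congrFun hM i) j
    have h2 := congrFun (congrFun hN i) j
    rw [ct_apply] at h1 h2
    rw [h1, h2]
  smul_mem' := by
    intro c M hM
    ext i j
    rw [ct_apply, Matrix.smul_apply, Matrix.smul_apply, map_smul]
    have h1 := congrFun (congrFun hM i) j
    rw [ct_apply] at h1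
    rw [h1]

variable {σ}

theorem mem_HM {M : Matrix (Fin 2) (Fin 2) E} : M ∈ HM σ ↔ ct σ M = M := Iff.rfl

theorem hm_apply (M : HM σ) (i j : Fin 2) : σ ((M : Matrix (Fin 2) (Fin 2) E) j i) =
    (M : Matrix (Fin 2) (Fin 2) E) i j := by
  have h1 := congrFun (congrFun M.2 i) j
  rwa [ct_apply] at h1

theorem conj_mem (hσ : ∀ x, σ (σ x) = x) (g : Matrix (Fin 2) (Fin 2) E) {M : Matrix (Fin 2) (Fin 2) E}
    (hM : M ∈ HM σ) : g * M * ct σ g ∈ HM σ := by
  rw [mem_HM] at hM ⊢
  rw [ct_mul, ct_mul, ct_ct σ hσ, hM, mul_assoc]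

variable (σ) in
/-- the quadratic form `Tr (det M)` -/
noncomputable def R : QuadraticForm F (HM σ) :=
  LinearMap.BilinMap.toQuadraticMap (LinearMap.mk₂ F
    (fun M N : HM σ => Algebra.trace F E ((M : Matrix (Fin 2) (Fin 2) E) 0 0 * (N : Matrix (Fin 2) (Fin 2) E) 1 1 -
      (M : Matrix (Fin 2) (Fin 2) E) 0 1 * (N : Matrix (Fin 2) (Fin 2) E) 1 0))
    (fun M M' N => by
      rw [← map_add]; congr 1
      simp only [Submodule.coe_add, Matrix.add_apply]; ring)
    (fun c M N => by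
      rw [← map_smul]; congr 1
      simp only [SetLike.val_smul, Matrix.smul_apply, smul_mul_assoc, smul_sub])
    (fun M N N' => by
      rw [← map_add]; congr 1
      simp only [Submodule.coe_add, Matrix.add_apply]; ring)
    (fun c M N => by
      rw [← map_smul]; congr 1
      simp only [SetLike.val_smul, Matrix.smul_apply, mul_smul_comm, smul_sub]))

theorem R_apply (M : HM σ) : R σ M = Algebra.trace F E (M : Matrix (Fin 2) (Fin 2) E).det := by
  rw [Matrix.det_fin_two]
  rfl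

theorem polar_R (M N : HM σ) : QuadraticMap.polar (R σ) M N =
    Algebra.trace F E ((M : Matrix (Fin 2) (Fin 2) E) 0 0 * (N : Matrix (Fin 2) (Fin 2) E) 1 1 +
      (M : Matrix (Fin 2) (Fin 2) E) 1 1 * (N : Matrix (Fin 2) (Fin 2) E) 0 0 -
      (M : Matrix (Fin 2) (Fin 2) E) 0 1 * (N : Matrix (Fin 2) (Fin 2) E) 1 0 -
      (M : Matrix (Fin 2) (Fin 2) E) 1 0 * (N : Matrix (Fin 2) (Fin 2) E) 0 1) := by
  rw [QuadraticMap.polar, R_apply, R_apply, R_apply, ← map_sub, ← map_sub]
  congr 1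
  simp only [Matrix.det_fin_two, Submodule.coe_add, Matrix.add_apply]
  ring

variable [Finite F] [Finite E]

theorem nondeg_R (h2 : (2 : F) ≠ 0) (hσ : ∀ x, σ (σ x) = x) : Nondeg (R σ) := by
  intro M hM
  have hnd := traceForm_nondegenerate F E
  have hz : ∀ y : E, (∀ z : E, Algebra.trace F E (z * y) = 0) → y = 0 := by
    intro y hy
    apply (hnd.1 : ∀ x, (∀ y, Algebra.traceForm F E x y = 0) → x = 0) y
    intro z
    rw [Algebra.traceForm_apply, mul_comm]
    exact hy z
  have hfix : ∀ y : E, σ y = y → (∀ z : E, Algebra.trace F E ((z + σ z) * y) = 0) → y = 0 := by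
    intro y hy h
    apply hz
    intro z
    have h1 := h z
    have h3 : Algebra.trace F E (σ z * y) = Algebra.trace F E (z * y) := by
      rw [← Algebra.trace_eq_of_algEquiv σ (z * y), map_mul σ, hy]
    rw [add_mul, map_add, h3, ← two_mul] at h1
    exact (mul_eq_zero.1 h1).resolve_left h2
  have h11 : (M : Matrix (Fin 2) (Fin 2) E) 1 1 = 0 := by
    refine hfix _ (hm_apply M 1 1) fun z => ?_
    have hN : !![z + σ z, 0; 0, 0] ∈ HM σ := by
      rw [mem_HM]
      ext i j
      rw [ct_apply]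
      fin_cases i <;> fin_cases j <;> simp [hσ, add_comm]
    have h1 := hM ⟨_, hN⟩
    rw [polar_R] at h1
    simpa [mul_comm] using h1
  have h00 : (M : Matrix (Fin 2) (Fin 2) E) 0 0 = 0 := by
    refine hfix _ (hm_apply M 0 0) fun z => ?_
    have hN : !![0, 0; 0, z + σ z] ∈ HM σ := by
      rw [mem_HM]
      ext i j
      rw [ct_apply]
      fin_cases i <;> fin_cases j <;> simp [hσ, add_comm]
    have h1 := hM ⟨_, hN⟩
    rw [polar_R] at h1
    simpa [mul_comm] using h1
  have h10 : (M : Matrix (Fin 2) (Fin 2) E) 1 0 = 0 := by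
    apply hz
    intro z
    have hN : !![0, z; σ z, 0] ∈ HM σ := by
      rw [mem_HM]
      ext i j
      rw [ct_apply]
      fin_cases i <;> fin_cases j <;> simp [hσ]
    have h1 := hM ⟨_, hN⟩
    rw [polar_R] at h1
    have h3 : Algebra.trace F E ((M : Matrix (Fin 2) (Fin 2) E) 0 1 * σ z) =
        Algebra.trace F E ((M : Matrix (Fin 2) (Fin 2) E) 1 0 * z) := by
      rw [← Algebra.trace_eq_of_algEquiv σ ((M : Matrix (Fin 2) (Fin 2) E) 1 0 * z), map_mul σ, hm_apply M 0 1]
    have h4 : Algebra.trace F E ((M : Matrix (Fin 2) (Fin 2) E) 0 0 * 0 +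
        (M : Matrix (Fin 2) (Fin 2) E) 1 1 * 0 - (M : Matrix (Fin 2) (Fin 2) E) 0 1 * σ z -
        (M : Matrix (Fin 2) (Fin 2) E) 1 0 * z) = 0 := h1
    rw [mul_zero, mul_zero, add_zero, zero_sub, map_sub, map_neg, h3] at h4
    have h5 : (2 : F) * Algebra.trace F E ((M : Matrix (Fin 2) (Fin 2) E) 1 0 * z) = 0 := by
      linear_combination -h4
    rw [mul_comm]
    exact (mul_eq_zero.1 h5).resolve_left h2
  have h01 : (M : Matrix (Fin 2) (Fin 2) E) 0 1 = 0 := by
    rw [← hm_apply M 0 1, h10, map_zero]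
  apply Subtype.ext
  ext i j
  fin_cases i <;> fin_cases j
  · exact h00
  · exact h01
  · exact h10
  · exact h11

theorem finrank_HM_le (h2 : (2 : F) ≠ 0) (hσ : ∀ x, σ (σ x) = x) (hσ1 : σ ≠ 1) :
    finrank F (HM σ) ≤ 2 * finrank F E := by
  have h20 : (2 : E) ≠ 0 := by
    have := (map_ne_zero (algebraMap F E)).2 h2
    rwa [map_ofNat] at this
  obtain ⟨x, hx⟩ : ∃ x, σ x ≠ x := by
    by_contra hcon
    push Not at hcon
    exact hσ1 (AlgEquiv.ext hcon)
  set θ := x - σ x with hθ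
  have hθ0 : θ ≠ 0 := fun h => hx (sub_eq_zero.1 h).symm
  have hσθ : σ θ = -θ := by rw [hθ, map_sub, hσ]; ring
  let f : (HM σ × HM σ) →ₗ[F] Matrix (Fin 2) (Fin 2) E :=
    LinearMap.coprod (HM σ).subtype ((LinearMap.lsmul E (Matrix (Fin 2) (Fin 2) E) θ).restrictScalars F ∘ₗ
      (HM σ).subtype)
  have hf : ∀ M N : HM σ, f (M, N) = (M : Matrix (Fin 2) (Fin 2) E) + θ • (N : Matrix (Fin 2) (Fin 2) E) :=
    fun M N => rfl
  have hinj : Function.Injective f := by
    rw [injective_iff_map_eq_zero]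
    rintro ⟨M, N⟩ h
    rw [hf] at h
    have hM : ∀ i j, (M : Matrix (Fin 2) (Fin 2) E) i j = 0 ∧ (N : Matrix (Fin 2) (Fin 2) E) i j = 0 := by
      intro i j
      have h3 : (M : Matrix (Fin 2) (Fin 2) E) i j + θ * (N : Matrix (Fin 2) (Fin 2) E) i j = 0 :=
        congrFun (congrFun h i) j
      have h4 : (M : Matrix (Fin 2) (Fin 2) E) j i + θ * (N : Matrix (Fin 2) (Fin 2) E) j i = 0 :=
        congrFun (congrFun h j) i
      have h5 := congrArg σ h4
      rw [map_add, map_mul, hm_apply, hm_apply, hσθ, map_zero] at h5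
      have h6 : (2 : E) * (M : Matrix (Fin 2) (Fin 2) E) i j = 0 := by linear_combination h3 + h5
      have h7 := (mul_eq_zero.1 h6).resolve_left h20
      refine ⟨h7, ?_⟩
      rw [h7, zero_add] at h3
      exact (mul_eq_zero.1 h3).resolve_left hθ0
    refine Prod.ext (Subtype.ext ?_) (Subtype.ext ?_)
    · ext i j; exact (hM i j).1
    · ext i j; exact (hM i j).2
  have h1 := LinearMap.finrank_le_finrank_of_injective hinj
  rw [Module.finrank_prod, Module.finrank_matrix, Fintype.card_fin] at h1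
  omega

omit [Finite F] [Finite E]

/-- the action of `SL_2(E)` -/
noncomputable def herm (hσ : ∀ x, σ (σ x) = x) : SL(2, E) →* (HM σ ≃ₗ[F] HM σ) where
  toFun g :=
    { toFun := fun M => ⟨(g : Matrix (Fin 2) (Fin 2) E) * M * ct σ g, conj_mem hσ _ M.2⟩
      map_add' := fun M N => Subtype.ext (by
        simp only [Submodule.coe_add, mul_add, add_mul])
      map_smul' := fun c M => Subtype.ext (by
        simp only [SetLike.val_smul, mul_smul_comm, smul_mul_assoc, RingHom.id_apply])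
      invFun := fun M => ⟨((g⁻¹ : SL(2, E)) : Matrix (Fin 2) (Fin 2) E) * M * ct σ ((g⁻¹ : SL(2, E)) : Matrix _ _ E),
        conj_mem hσ _ M.2⟩
      left_inv := fun M => Subtype.ext (by
        change ((g⁻¹ : SL(2, E)) : Matrix (Fin 2) (Fin 2) E) * ((g : Matrix (Fin 2) (Fin 2) E) * M * ct σ g) *
          ct σ ((g⁻¹ : SL(2, E)) : Matrix _ _ E) = M
        have h1 : ((g⁻¹ : SL(2, E)) : Matrix (Fin 2) (Fin 2) E) * (g : Matrix (Fin 2) (Fin 2) E) = 1 := by
          rw [← Matrix.SpecialLinearGroup.coe_mul, inv_mul_cancel, Matrix.SpecialLinearGroup.coe_one]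
        have h2 : ct σ (g : Matrix (Fin 2) (Fin 2) E) * ct σ ((g⁻¹ : SL(2, E)) : Matrix (Fin 2) (Fin 2) E) = 1 := by
          rw [← ct_mul, h1, ct_one]
        rw [← mul_assoc, ← mul_assoc, h1, one_mul, mul_assoc, h2, mul_one])
      right_inv := fun M => Subtype.ext (by
        change (g : Matrix (Fin 2) (Fin 2) E) * (((g⁻¹ : SL(2, E)) : Matrix (Fin 2) (Fin 2) E) * M *
          ct σ ((g⁻¹ : SL(2, E)) : Matrix _ _ E)) * ct σ g = M
        have h1 : (g : Matrix (Fin 2) (Fin 2) E) * ((g⁻¹ : SL(2, E)) : Matrix (Fin 2) (Fin 2) E) = 1 := by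
          rw [← Matrix.SpecialLinearGroup.coe_mul, mul_inv_cancel, Matrix.SpecialLinearGroup.coe_one]
        have h2 : ct σ ((g⁻¹ : SL(2, E)) : Matrix (Fin 2) (Fin 2) E) * ct σ (g : Matrix (Fin 2) (Fin 2) E) = 1 := by
          rw [← ct_mul, h1, ct_one]
        rw [← mul_assoc, ← mul_assoc, h1, one_mul, mul_assoc, h2, mul_one]) }
  map_one' := by
    refine LinearEquiv.ext fun M => Subtype.ext ?_
    change ((1 : SL(2, E)) : Matrix (Fin 2) (Fin 2) E) * M * ct σ ((1 : SL(2, E)) : Matrix _ _ E) = M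
    rw [Matrix.SpecialLinearGroup.coe_one, ct_one, one_mul, mul_one]
  map_mul' g h := by
    refine LinearEquiv.ext fun M => Subtype.ext ?_
    change ((g * h : SL(2, E)) : Matrix (Fin 2) (Fin 2) E) * M * ct σ ((g * h : SL(2, E)) : Matrix _ _ E) =
      (g : Matrix (Fin 2) (Fin 2) E) * ((h : Matrix (Fin 2) (Fin 2) E) * M * ct σ h) * ct σ g
    rw [Matrix.SpecialLinearGroup.coe_mul, ct_mul]
    simp only [mul_assoc]

theorem herm_apply (hσ : ∀ x, σ (σ x) = x) (g : SL(2, E)) (M : HM σ) :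
    ((herm hσ g M : HM σ) : Matrix (Fin 2) (Fin 2) E) = (g : Matrix (Fin 2) (Fin 2) E) * M * ct σ g := rfl

theorem herm_mem (hσ : ∀ x, σ (σ x) = x) (g : SL(2, E)) : herm hσ g ∈ O (R σ) := by
  intro M
  rw [R_apply, R_apply, herm_apply, Matrix.det_mul, Matrix.det_mul, det_ct, g.2, map_one, one_mul, mul_one]

theorem herm_neg_one (hσ : ∀ x, σ (σ x) = x) : herm hσ (-1) = 1 := by
  refine LinearEquiv.ext fun M => Subtype.ext ?_
  rw [herm_apply, Matrix.SpecialLinearGroup.coe_neg, Matrix.SpecialLinearGroup.coe_one, ct_neg, ct_one]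
  change -1 * (M : Matrix (Fin 2) (Fin 2) E) * -1 = M
  rw [neg_one_mul, mul_neg, mul_one, neg_neg]

theorem herm_ker (hσ : ∀ x, σ (σ x) = x) {g : SL(2, E)} (hg : herm hσ g = 1) : g = 1 ∨ g = -1 := by
  have h1 : ∀ M ∈ HM σ, (g : Matrix (Fin 2) (Fin 2) E) * M * ct σ g = M := by
    intro M hM
    have h2 := congrArg (fun T : HM σ ≃ₗ[F] HM σ => ((T ⟨M, hM⟩ : HM σ) : Matrix (Fin 2) (Fin 2) E)) hg
    exact h2
  have h2 := h1 1 (by rw [mem_HM, ct_one])
  rw [mul_one] at h2
  have h3 : ∀ M ∈ HM σ, (g : Matrix (Fin 2) (Fin 2) E) * M = M * g := by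
    intro M hM
    have h4 : ct σ (g : Matrix (Fin 2) (Fin 2) E) * (g : Matrix (Fin 2) (Fin 2) E) = 1 := by
      rwa [mul_eq_one_comm]
    calc (g : Matrix (Fin 2) (Fin 2) E) * M = (g : Matrix (Fin 2) (Fin 2) E) * M * (ct σ g * g) := by
          rw [h4, mul_one]
      _ = ((g : Matrix (Fin 2) (Fin 2) E) * M * ct σ g) * g := by rw [mul_assoc, mul_assoc, mul_assoc]
      _ = M * g := by rw [h1 M hM]
  have ha := h3 !![1, 0; 0, 0] (by
    rw [mem_HM]
    ext i j
    rw [ct_apply]
    fin_cases i <;> fin_cases j <;> simp)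
  have hb := h3 !![0, 1; 1, 0] (by
    rw [mem_HM]
    ext i j
    rw [ct_apply]
    fin_cases i <;> fin_cases j <;> simp)
  have e01 : (g : Matrix (Fin 2) (Fin 2) E) 0 1 = 0 := by
    have := congrFun (congrFun ha 0) 1
    simpa [Matrix.mul_apply, Fin.sum_univ_two] using this.symm
  have e10 : (g : Matrix (Fin 2) (Fin 2) E) 1 0 = 0 := by
    have := congrFun (congrFun ha 1) 0
    simpa [Matrix.mul_apply, Fin.sum_univ_two] using this
  have e11 : (g : Matrix (Fin 2) (Fin 2) E) 0 0 = (g : Matrix (Fin 2) (Fin 2) E) 1 1 := by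
    have := congrFun (congrFun hb 0) 1
    simpa [Matrix.mul_apply, Fin.sum_univ_two] using this
  have hdet : (g : Matrix (Fin 2) (Fin 2) E) 0 0 * (g : Matrix (Fin 2) (Fin 2) E) 0 0 = 1 := by
    have := g.2
    rw [Matrix.det_fin_two, e01, e10, ← e11] at this
    simpa using this
  rcases mul_self_eq_one_iff.1 hdet with h | h
  · left
    apply Subtype.ext
    rw [Matrix.SpecialLinearGroup.coe_one]
    ext i j
    fin_cases i <;> fin_cases j
    · exact h
    · exact e01
    · exact e10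
    · exact e11.symm.trans h
  · right
    apply Subtype.ext
    rw [Matrix.SpecialLinearGroup.coe_neg, Matrix.SpecialLinearGroup.coe_one]
    ext i j
    fin_cases i <;> fin_cases j
    · simpa using h
    · simpa using e01
    · simpa using e10
    · simpa using e11.symm.trans h

end Herm

end Cfsg.Agent.H327.KR
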